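import Mathlib

/-!
Self-dual coprime modules split as symplectic plus orthogonal.
-/

set_option autoImplicit false

namespace Cfsg.Agent.H4

open Module

section
variable {F : Type*} [Field F] {G : Type*} [Group G] {V : Type*} [AddCommGroup V] [Module F V]

theorem exists_inner_inverse (φ : V →ₗ[F] V) : ∃ β : V →ₗ[F] V, ∀ x, φ (β (φ x)) = φ x := by
  obtain ⟨γ, hγ⟩ := φ.rangeRestrict.exists_rightInverse_of_surjective
    (LinearMap.range_rangeRestrict φ)
  obtain ⟨β, hβ⟩ := LinearMap.exists_extend γ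
  refine ⟨β, fun x => ?_⟩
  have h1 : β (φ x) = γ ⟨φ x, LinearMap.mem_range_self φ x⟩ := by
    rw [← hβ]; rfl
  have h2 := congrArg (fun f => ((f ⟨φ x, LinearMap.mem_range_self φ x⟩ :
    LinearMap.range φ) : V)) hγ
  rw [h1]
  simpa using h2

theorem rep_apply_inv_apply (ρ : Representation F G V) (g : G) (x : V) :
    ρ g (ρ g⁻¹ x) = x := by
  rw [← Module.End.mul_apply, ← map_mul]; simp

theorem rep_inv_apply_apply (ρ : Representation F G V) (g : G) (x : V) :
    ρ g⁻¹ (ρ g x) = x := by
  rw [← Module.End.mul_apply, ← map_mul]; simp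

theorem exists_equivariant_inner_inverse [Finite G] (hc : (Nat.card G : F) ≠ 0)
    (ρ : Representation F G V) (φ : V →ₗ[F] V) (hφ : ∀ g x, φ (ρ g x) = ρ g (φ x)) :
    ∃ β : V →ₗ[F] V, (∀ x, φ (β (φ x)) = φ x) ∧ ∀ g x, β (ρ g x) = ρ g (β x) := by
  classical
  have := Fintype.ofFinite G
  obtain ⟨β, hβ⟩ := exists_inner_inverse φ
  refine ⟨(Nat.card G : F)⁻¹ • ∑ g : G, ρ g ∘ₗ β ∘ₗ ρ g⁻¹, fun x => ?_, fun h x => ?_⟩
  · simp only [LinearMap.smul_apply, LinearMap.coe_sum, Finset.sum_apply, LinearMap.comp_apply,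
      map_smul, map_sum]
    have : ∀ g : G, φ (ρ g (β (ρ g⁻¹ (φ x)))) = φ x := by
      intro g
      rw [hφ, ← hφ g⁻¹, hβ, ← hφ, rep_apply_inv_apply]
    simp only [this, Finset.sum_const, Finset.card_univ, ← Nat.card_eq_fintype_card]
    rw [← Nat.cast_smul_eq_nsmul F, smul_smul, inv_mul_cancel₀ hc, one_smul]
  · simp only [LinearMap.smul_apply, LinearMap.coe_sum, Finset.sum_apply, LinearMap.comp_apply,
      map_smul, map_sum]
    congr 1
    refine (Fintype.sum_equiv (Equiv.mulLeft h) _ _ fun g => ?_).symm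
    simp only [Equiv.coe_mulLeft, map_mul, mul_inv_rev, Module.End.mul_apply,
      rep_inv_apply_apply]

variable [FiniteDimensional F V]

/-- the endomorphism representing a form `S` against a nondegenerate form `B`. -/
theorem exists_repr_form (B : LinearMap.BilinForm F V) (hB : B.Nondegenerate)
    (S : LinearMap.BilinForm F V) : ∃ φ : V →ₗ[F] V, ∀ x y, B (φ x) y = S x y := by
  refine ⟨(B.toDual hB).symm.toLinearMap ∘ₗ S, fun x y => ?_⟩
  simp only [LinearMap.comp_apply, LinearEquiv.coe_coe]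
  exact LinearMap.BilinForm.apply_toDual_symm_apply _ _

theorem repr_form_equivariant (ρ : Representation F G V) (B : LinearMap.BilinForm F V)
    (hB : B.Nondegenerate) (hBinv : ∀ g : G, ∀ x y : V, B (ρ g x) (ρ g y) = B x y)
    (S : LinearMap.BilinForm F V) (hS : ∀ g : G, ∀ x y : V, S (ρ g x) (ρ g y) = S x y)
    (φ : V →ₗ[F] V) (hφ : ∀ x y, B (φ x) y = S x y) (g : G) (x : V) :
    φ (ρ g x) = ρ g (φ x) := by
  rw [← sub_eq_zero]
  apply hB.1
  intro y
  rw [map_sub, LinearMap.sub_apply, hφ, ← rep_apply_inv_apply ρ g y, hBinv, hS, hφ, sub_self]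

/-- If an invariant symmetric form is degenerate, some nonzero invariant form lives on its
radical. -/
theorem exists_form_on_radical [Finite G] (hc : (Nat.card G : F) ≠ 0)
    (ρ : Representation F G V) (B : LinearMap.BilinForm F V)
    (hB : B.Nondegenerate) (hBinv : ∀ g : G, ∀ x y : V, B (ρ g x) (ρ g y) = B x y)
    (S : LinearMap.BilinForm F V) (hS : ∀ g : G, ∀ x y : V, S (ρ g x) (ρ g y) = S x y)
    (hsym : ∀ x y, S x y = S y x) (hker : LinearMap.ker S ≠ ⊥) :
    ∃ (π : V →ₗ[F] V) (T : LinearMap.BilinForm F V), (∀ x, S (π x) = 0) ∧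
      (∀ x, S x = 0 → π x = x) ∧ T ≠ 0 ∧ (∀ g : G, ∀ x y : V, T (ρ g x) (ρ g y) = T x y) ∧
      ∀ x y, T x y = T (π x) (π y) := by
  obtain ⟨φ, hφ⟩ := exists_repr_form B hB S
  have hφG := repr_form_equivariant ρ B hB hBinv S hS φ hφ
  obtain ⟨β, hβ, hβG⟩ := exists_equivariant_inner_inverse hc ρ φ hφG
  have hkS : ∀ x, S x = 0 ↔ φ x = 0 := by
    intro x
    constructor
    · intro h
      apply hB.1
      intro y
      rw [hφ, h]; rfl
    · intro h
      ext y
      rw [← hφ, h]; simp
  set π : V →ₗ[F] V := LinearMap.id - β ∘ₗ φ with hπ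
  have hπ1 : ∀ x, φ (π x) = 0 := by
    intro x; simp [hπ, hβ]
  have hπ2 : ∀ x, φ x = 0 → π x = x := by
    intro x hx; simp [hπ, hx]
  have hπG : ∀ g x, π (ρ g x) = ρ g (π x) := by
    intro g x; simp [hπ, hφG, hβG]
  have hβk : ∀ (k : ℕ) g x, (β ^ k) (ρ g x) = ρ g ((β ^ k) x) := by
    intro k
    induction k with
    | zero => intro g x; simp
    | succ k ih => intro g x; rw [pow_succ', Module.End.mul_apply, Module.End.mul_apply, ih, hβG]
  by_contra hcon
  have hall : ∀ (k : ℕ) (r r' : V), φ r = 0 → φ r' = 0 → B ((β ^ k) r) r' = 0 := by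
    intro k r r' hr hr'
    by_contra hne
    apply hcon
    refine ⟨π, (B.compLeft (β ^ k)).comp π π, fun x => (hkS _).2 (hπ1 x),
      fun x hx => hπ2 x ((hkS x).1 hx), ?_, ?_, ?_⟩
    · intro h0
      have := congrArg (fun T : LinearMap.BilinForm F V => T r r') h0
      simp only [LinearMap.BilinForm.comp_apply, LinearMap.BilinForm.compLeft_apply, hπ2 r hr,
        hπ2 r' hr', LinearMap.zero_apply] at this
      exact hne this
    · intro g x y
      simp only [LinearMap.BilinForm.comp_apply, LinearMap.BilinForm.compLeft_apply, hπG, hβk,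
        hBinv]
    · intro x y
      simp only [LinearMap.BilinForm.comp_apply, LinearMap.BilinForm.compLeft_apply,
        hπ2 _ (hπ1 _)]
  have hflip : S.flip = S := by
    ext x y; exact hsym y x
  have hrange : ∀ z, (∀ r', φ r' = 0 → B z r' = 0) → ∃ w, φ w = z := by
    intro z hz
    have h1 : B z ∈ (LinearMap.ker S).dualAnnihilator := by
      rw [Submodule.mem_dualAnnihilator]
      intro w hw
      exact hz w ((hkS w).1 hw)
    rw [LinearMap.dualAnnihilator_ker_eq_range_flip] at h1
    obtain ⟨w, hw⟩ := h1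
    refine ⟨w, ?_⟩
    rw [← sub_eq_zero]
    apply hB.1
    intro y
    have := congrArg (fun f : Module.Dual F V => f y) hw
    simp only [LinearMap.flip_apply] at this
    rw [map_sub, LinearMap.sub_apply, hφ, hsym, this, sub_self]
  obtain ⟨r, hr, hr0⟩ := (Submodule.ne_bot_iff _).1 hker
  have hr' : φ r = 0 := (hkS r).1 hr
  have hpow : ∀ k : ℕ, (φ ^ k) ((β ^ k) r) = r := by
    intro k
    induction k with
    | zero => simp
    | succ k ih =>
      obtain ⟨w, hw⟩ := hrange ((β ^ k) r) fun r' h => hall k r r' hr' h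
      rw [pow_succ φ, pow_succ' β, Module.End.mul_apply, Module.End.mul_apply, ← hw, hβ, hw, ih]
  obtain ⟨n, hn⟩ := Filter.eventually_atTop.1 φ.eventually_isCompl_ker_pow_range_pow
  have hc' := hn (n + 1) (Nat.le_succ n)
  apply hr0
  have h1 : r ∈ LinearMap.ker (φ ^ (n + 1)) := by
    rw [LinearMap.mem_ker, pow_succ, Module.End.mul_apply, hr', map_zero]
  have h2 : r ∈ LinearMap.range (φ ^ (n + 1)) := ⟨_, hpow (n + 1)⟩
  exact (Submodule.disjoint_def.1 hc'.disjoint) r h1 h2

/-- In characteristic two a self-dual coprime module has a nondegenerate invariant symmetric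
form. -/
theorem exists_symm_form_char_two [Finite G] (hc : (Nat.card G : F) ≠ 0) (h2 : (2 : F) = 0)
    (ρ : Representation F G V) (B : LinearMap.BilinForm F V)
    (hB : B.Nondegenerate) (hBinv : ∀ g : G, ∀ x y : V, B (ρ g x) (ρ g y) = B x y) :
    ∃ S : LinearMap.BilinForm F V, (∀ g : G, ∀ x y : V, S (ρ g x) (ρ g y) = S x y) ∧
      (∀ x y, S x y = S y x) ∧ LinearMap.ker S = ⊥ := by
  have key : ∀ n : ℕ, ∀ S : LinearMap.BilinForm F V,
      (∀ g : G, ∀ x y : V, S (ρ g x) (ρ g y) = S x y) → (∀ x y, S x y = S y x) →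
      finrank F (LinearMap.ker S) = n →
      ∃ S : LinearMap.BilinForm F V, (∀ g : G, ∀ x y : V, S (ρ g x) (ρ g y) = S x y) ∧
        (∀ x y, S x y = S y x) ∧ LinearMap.ker S = ⊥ := by
    intro n
    induction n using Nat.strong_induction_on with
    | _ n ih =>
      intro S hS hsym hn
      by_cases hker : LinearMap.ker S = ⊥
      · exact ⟨S, hS, hsym, hker⟩
      obtain ⟨π, T, hπ1, hπ2, hT0, hTG, hTπ⟩ :=
        exists_form_on_radical hc ρ B hB hBinv S hS hsym hker
      obtain ⟨T', hT'0, hT'G, hT'π, hT's⟩ : ∃ T' : LinearMap.BilinForm F V, T' ≠ 0 ∧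
          (∀ g : G, ∀ x y : V, T' (ρ g x) (ρ g y) = T' x y) ∧
          (∀ x y, T' x y = T' (π x) (π y)) ∧ ∀ x y, T' x y = T' y x := by
        by_cases hs : ∀ x y, T x y = T y x
        · exact ⟨T, hT0, hTG, hTπ, hs⟩
        · refine ⟨T + T.flip, ?_, ?_, ?_, ?_⟩
          · intro h0
            apply hs
            intro x y
            have := congrArg (fun T : LinearMap.BilinForm F V => T x y) h0
            simp only [LinearMap.add_apply, LinearMap.zero_apply] at this
            change T x y + T y x = 0 at this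
            linear_combination this - T y x * h2
          · intro g x y
            change T _ _ + T _ _ = T _ _ + T _ _
            rw [hTG, hTG]
          · intro x y
            change T _ _ + T _ _ = T _ _ + T _ _
            rw [← hTπ, ← hTπ]
          · intro x y
            change T _ _ + T _ _ = T _ _ + T _ _
            rw [add_comm]
      have hππ : ∀ x, π (π x) = π x := fun x => hπ2 _ (hπ1 x)
      refine ih _ ?_ (S + T') ?_ ?_ rfl
      · rw [← hn]
        apply Submodule.finrank_lt_finrank_of_lt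
        have hle : LinearMap.ker (S + T') ≤ LinearMap.ker S := by
          intro x hx
          rw [LinearMap.mem_ker] at hx ⊢
          ext y
          have h1 := congrArg (fun f : V →ₗ[F] F => f (y - π y)) hx
          simp only [LinearMap.add_apply, LinearMap.zero_apply] at h1
          rw [hT'π, map_sub π, hππ, sub_self, map_zero, add_zero, map_sub, hsym x (π y), hπ1] at h1
          simpa using h1
        refine lt_of_le_of_ne hle fun heq => hT'0 ?_
        ext x y
        have h1 : π x ∈ LinearMap.ker (S + T') := by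
          rw [heq]; exact hπ1 x
        rw [LinearMap.mem_ker] at h1
        have h3 := congrArg (fun f : V →ₗ[F] F => f (π y)) h1
        simp only [LinearMap.add_apply, LinearMap.zero_apply, hπ1, zero_add] at h3
        rw [hT'π, h3]; rfl
      · intro g x y
        simp only [LinearMap.add_apply, hS, hT'G]
      · intro x y
        simp only [LinearMap.add_apply]
        rw [hsym, hT's]
  exact key _ 0 (by simp) (by simp) rfl

theorem selfDual_split_two [Finite G] (hc : (Nat.card G : F) ≠ 0) (h2 : (2 : F) = 0)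
    (ρ : Representation F G V) (B : LinearMap.BilinForm F V)
    (hB : B.Nondegenerate) (hBinv : ∀ g : G, ∀ x y : V, B (ρ g x) (ρ g y) = B x y) :
    ∃ U W : Submodule F V, IsCompl U W ∧ (∀ g : G, ∀ u ∈ U, ρ g u ∈ U) ∧
      (∀ g : G, ∀ w ∈ W, ρ g w ∈ W) ∧
      (∃ A : LinearMap.BilinForm F V, (∀ x : V, A x x = 0) ∧
        (∀ g : G, ∀ x ∈ U, ∀ y ∈ U, A (ρ g x) (ρ g y) = A x y) ∧
        (∀ x ∈ U, (∀ y ∈ U, A x y = 0) → x = 0)) ∧
      (∃ S : LinearMap.BilinForm F V, (∀ x y : V, S x y = S y x) ∧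
        (∀ g : G, ∀ x ∈ W, ∀ y ∈ W, S (ρ g x) (ρ g y) = S x y) ∧
        (∀ x ∈ W, (∀ y ∈ W, S x y = 0) → x = 0)) ∧ (∀ g : G, ∀ w ∈ W, ρ g w = w) := by
  classical
  have := Fintype.ofFinite G
  obtain ⟨S, hS, hsym, hker⟩ := exists_symm_form_char_two hc h2 ρ B hB hBinv
  have hnd : ∀ x, (∀ y, S x y = 0) → x = 0 := by
    intro x hx
    have : x ∈ LinearMap.ker S := by
      rw [LinearMap.mem_ker]; ext y; exact hx y
    rwa [hker] at this
  set e : V →ₗ[F] V := (Nat.card G : F)⁻¹ • ∑ g : G, ρ g with he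
  have he_apply : ∀ x, e x = (Nat.card G : F)⁻¹ • ∑ g : G, ρ g x := by
    intro x; simp [he]
  have hfix : ∀ h x, ρ h (e x) = e x := by
    intro h x
    rw [he_apply, map_smul, map_sum]
    congr 1
    refine Fintype.sum_equiv (Equiv.mulLeft h) _ _ fun g => ?_
    simp
  have hfix' : ∀ h x, e (ρ h x) = e x := by
    intro h x
    rw [he_apply, he_apply]
    congr 1
    refine Fintype.sum_equiv (Equiv.mulRight h) _ _ fun g => ?_
    simp
  have hid : ∀ x, (∀ g, ρ g x = x) → e x = x := by
    intro x hx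
    rw [he_apply]
    simp only [hx, Finset.sum_const, Finset.card_univ, ← Nat.card_eq_fintype_card]
    rw [← Nat.cast_smul_eq_nsmul F, smul_smul, inv_mul_cancel₀ hc, one_smul]
  have hee : ∀ x, e (e x) = e x := fun x => hid _ fun g => hfix g x
  have hadj : ∀ x y, S (e x) y = S x (e y) := by
    intro x y
    rw [he_apply, he_apply]
    simp only [map_smul, map_sum, LinearMap.smul_apply, LinearMap.coe_sum, Finset.sum_apply]
    congr 1
    refine Fintype.sum_equiv (Equiv.inv G) _ _ fun g => ?_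
    simp only [Equiv.inv_apply]
    rw [← hS g⁻¹, rep_inv_apply_apply]
  have hcompl : IsCompl (LinearMap.ker e) (LinearMap.range e) := by
    constructor
    · rw [Submodule.disjoint_def]
      rintro x hx ⟨y, rfl⟩
      rw [LinearMap.mem_ker, hee] at hx
      exact hx
    · rw [codisjoint_iff, eq_top_iff]
      intro x _
      have : x = (x - e x) + e x := by abel
      rw [this]
      refine Submodule.add_mem_sup ?_ ⟨x, rfl⟩
      rw [LinearMap.mem_ker, map_sub, hee, sub_self]
  have horth : ∀ x y, e x = 0 → S x (e y) = 0 := by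
    intro x y hx
    rw [← hadj, hx]; simp
  -- `S` is alternating on the kernel of `e`
  have halt : ∀ x, e x = 0 → S x x = 0 := by
    intro x hx
    let Z : Submodule F V :=
      { carrier := {z | S z z = 0}
        add_mem' := by
          intro a b ha hb
          simp only [Set.mem_ofPred_eq, map_add, LinearMap.add_apply] at ha hb ⊢
          rw [ha, hb, hsym b a]
          linear_combination S a b * h2
        zero_mem' := by simp
        smul_mem' := by
          intro c a ha
          simp only [Set.mem_ofPred_eq, map_smul, LinearMap.smul_apply] at ha ⊢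
          rw [ha]; simp }
    have h1 : ∀ g, x - ρ g x ∈ Z := by
      intro g
      change S (x - ρ g x) (x - ρ g x) = 0
      simp only [map_sub, LinearMap.sub_apply]
      rw [hS, hsym (ρ g x) x]
      linear_combination (S x x - S x (ρ g x)) * h2
    have h3 : x = (Nat.card G : F)⁻¹ • ∑ g : G, (x - ρ g x) := by
      rw [Finset.sum_sub_distrib, smul_sub, ← he_apply, hx, sub_zero]
      simp only [Finset.sum_const, Finset.card_univ, ← Nat.card_eq_fintype_card]
      rw [← Nat.cast_smul_eq_nsmul F, smul_smul, inv_mul_cancel₀ hc, one_smul]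
    have h4 : x ∈ Z := by
      rw [h3]
      exact Z.smul_mem _ (Z.sum_mem fun g _ => h1 g)
    exact h4
  refine ⟨LinearMap.ker e, LinearMap.range e, hcompl, ?_, ?_, ?_, ?_, ?_⟩
  · intro g u hu
    rw [LinearMap.mem_ker] at hu ⊢
    rw [hfix', hu]
  · rintro g _ ⟨y, rfl⟩
    exact ⟨y, (hfix g y).symm⟩
  · have hP : ∀ x, e x = 0 → (LinearMap.id - e : V →ₗ[F] V) x = x := by
      intro x hx; simp [hx]
    refine ⟨S.comp (LinearMap.id - e) (LinearMap.id - e), fun x => ?_, ?_, ?_⟩
    · rw [LinearMap.BilinForm.comp_apply]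
      apply halt
      simp [hee]
    · intro g x hx y hy
      rw [LinearMap.mem_ker] at hx hy
      rw [LinearMap.BilinForm.comp_apply, LinearMap.BilinForm.comp_apply, hP x hx, hP y hy,
        hP _ (by rw [hfix', hx]), hP _ (by rw [hfix', hy]), hS]
    · intro x hx h
      rw [LinearMap.mem_ker] at hx
      apply hnd
      intro y
      have h1 := h (y - e y) (by rw [LinearMap.mem_ker, map_sub, hee, sub_self])
      rw [LinearMap.BilinForm.comp_apply, hP x hx, hP _ (by rw [map_sub, hee, sub_self]),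
        map_sub, horth x y hx, sub_zero] at h1
      exact h1
  · refine ⟨S, hsym, fun g x _ y _ => hS g x y, ?_⟩
    rintro _ ⟨x, rfl⟩ h
    apply hnd
    intro y
    have h1 := h (e y) ⟨y, rfl⟩
    rw [← hadj, hee] at h1
    exact h1
  · rintro g _ ⟨y, rfl⟩
    exact hfix g y

theorem selfDual_split_odd (h2 : (2 : F) ≠ 0)
    (ρ : Representation F G V) (B : LinearMap.BilinForm F V)
    (hB : B.Nondegenerate) (hBinv : ∀ g : G, ∀ x y : V, B (ρ g x) (ρ g y) = B x y) :
    ∃ U W : Submodule F V, IsCompl U W ∧ (∀ g : G, ∀ u ∈ U, ρ g u ∈ U) ∧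
      (∀ g : G, ∀ w ∈ W, ρ g w ∈ W) ∧
      (∃ A : LinearMap.BilinForm F V, (∀ x : V, A x x = 0) ∧
        (∀ g : G, ∀ x ∈ U, ∀ y ∈ U, A (ρ g x) (ρ g y) = A x y) ∧
        (∀ x ∈ U, (∀ y ∈ U, A x y = 0) → x = 0)) ∧
      (∃ S : LinearMap.BilinForm F V, (∀ x y : V, S x y = S y x) ∧
        (∀ g : G, ∀ x ∈ W, ∀ y ∈ W, S (ρ g x) (ρ g y) = S x y) ∧
        (∀ x ∈ W, (∀ y ∈ W, S x y = 0) → x = 0)) := by
  obtain ⟨σ, hσ⟩ := exists_repr_form B hB B.flip
  have hσ' : ∀ x y, B (σ x) y = B y x := hσ
  have hσG := repr_form_equivariant ρ B hB hBinv B.flip (fun g x y => hBinv g y x) σ hσ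
  set τ : V →ₗ[F] V := LinearMap.id - σ with hτ
  have hτa : ∀ x, τ x = x - σ x := fun x => rfl
  have hτG : ∀ g x, τ (ρ g x) = ρ g (τ x) := by
    intro g x; rw [hτa, hτa, hσG, map_sub]
  have hτk : ∀ (k : ℕ) g x, (τ ^ k) (ρ g x) = ρ g ((τ ^ k) x) := by
    intro k
    induction k with
    | zero => intro g x; simp
    | succ k ih => intro g x; rw [pow_succ', Module.End.mul_apply, Module.End.mul_apply, ih, hτG]
  have hστ : ∀ x, σ (τ x) = τ (σ x) := by
    intro x; rw [hτa, hτa, map_sub]
  have hστk : ∀ (k : ℕ) x, σ ((τ ^ k) x) = (τ ^ k) (σ x) := by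
    intro k
    induction k with
    | zero => intro x; simp
    | succ k ih => intro x; rw [pow_succ', Module.End.mul_apply, Module.End.mul_apply, hστ, ih]
  have hττk : ∀ (k : ℕ) x, τ ((τ ^ k) x) = (τ ^ k) (τ x) := by
    intro k x
    rw [← Module.End.mul_apply, ← Module.End.mul_apply, ← pow_succ, ← pow_succ']
  have h1 : ∀ a b, B (τ a) b = - B (σ a) (τ b) := by
    intro a b
    rw [hσ', hτa, hτa]
    simp only [map_sub, LinearMap.sub_apply, hσ']
    ring
  have horth : ∀ (k : ℕ) a b, (τ ^ k) b = 0 → B ((τ ^ k) a) b = 0 := by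
    intro k
    induction k with
    | zero => intro a b hb; simp at hb; simp [hb]
    | succ k ih =>
      intro a b hb
      rw [pow_succ, Module.End.mul_apply] at hb
      rw [pow_succ', Module.End.mul_apply, h1, hστk, ih _ _ hb, neg_zero]
  have horth' : ∀ (k : ℕ) a b, (τ ^ k) b = 0 → B b ((τ ^ k) a) = 0 := by
    intro k a b hb
    rw [← hσ', hστk, horth k _ _ hb]
  obtain ⟨n, hn⟩ := Filter.eventually_atTop.1 τ.eventually_isCompl_ker_pow_range_pow
  have hc := hn (n + 1) (Nat.le_succ n)
  have hdec : ∀ y : V, ∃ a b, (τ ^ (n + 1)) b = 0 ∧ y = (τ ^ (n + 1)) a + b := by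
    intro y
    have : y ∈ LinearMap.ker (τ ^ (n + 1)) ⊔ LinearMap.range (τ ^ (n + 1)) := by
      rw [hc.sup_eq_top]; trivial
    obtain ⟨b, hb, _, ⟨a, rfl⟩, h⟩ := Submodule.mem_sup.1 this
    exact ⟨a, b, hb, by rw [← h, add_comm]⟩
  refine ⟨LinearMap.range (τ ^ (n + 1)), LinearMap.ker (τ ^ (n + 1)), hc.symm, ?_, ?_, ?_, ?_⟩
  · rintro g _ ⟨a, rfl⟩
    exact ⟨ρ g a, hτk _ _ _⟩
  · intro g w hw
    rw [LinearMap.mem_ker] at hw ⊢
    rw [hτk, hw, map_zero]
  · refine ⟨B - B.flip, fun x => ?_, ?_, ?_⟩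
    · change B x x - B x x = 0
      rw [sub_self]
    · intro g x _ y _
      change B _ _ - B _ _ = B _ _ - B _ _
      rw [hBinv, hBinv]
    · rintro _ ⟨x, rfl⟩ h
      have h3 : τ ((τ ^ (n + 1)) x) = 0 := by
        apply hB.1
        intro y
        obtain ⟨a, b, hb, rfl⟩ := hdec y
        rw [map_add]
        have h4 := h _ ⟨a, rfl⟩
        change B _ _ - B _ _ = 0 at h4
        rw [hττk, horth _ _ _ hb, add_zero, ← hττk, hτa, map_sub, LinearMap.sub_apply, hσ', h4]
      refine (Submodule.disjoint_def.1 hc.disjoint) _ ?_ ⟨x, rfl⟩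
      rw [LinearMap.mem_ker, pow_succ τ n, Module.End.mul_apply, ← pow_succ τ n, h3, map_zero]
  · refine ⟨B + B.flip, fun x y => ?_, ?_, ?_⟩
    · change B _ _ + B _ _ = B _ _ + B _ _
      rw [add_comm]
    · intro g x _ y _
      change B _ _ + B _ _ = B _ _ + B _ _
      rw [hBinv, hBinv]
    · intro x hx h
      rw [LinearMap.mem_ker] at hx
      have h3 : x + σ x = 0 := by
        apply hB.1
        intro y
        obtain ⟨a, b, hb, rfl⟩ := hdec y
        have h4 := h b hb
        change B _ _ + B _ _ = 0 at h4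
        have h5 : (τ ^ (n + 1)) (x + σ x) = 0 := by
          rw [map_add, ← hστk, hx, map_zero, add_zero]
        rw [map_add, horth' _ _ _ h5, zero_add, map_add, LinearMap.add_apply, hσ', h4]
      have h6 : τ x = (2 : F) • x := by
        rw [hτa, two_smul, eq_neg_of_add_eq_zero_right h3]; abel
      have h7 : ∀ k : ℕ, (τ ^ k) x = (2 : F) ^ k • x := by
        intro k
        induction k with
        | zero => simp
        | succ k ih => rw [pow_succ', Module.End.mul_apply, ih, map_smul, h6, smul_smul, pow_succ]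
      rw [h7] at hx
      exact (smul_eq_zero.1 hx).resolve_left (pow_ne_zero _ h2)

end

end Cfsg.Agent.H4
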